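import Cfsg.Agent.S4387
import Cfsg.Agent.Lib.LocalStruct.Minimal
import Cfsg.Agent.Lib.Solvable.Misc1
import Cfsg.Agent.Lib.PGroups.Basic

/-!
# Finite groups with at most two conjugacy classes of maximal subgroups

Such a group is solvable.  The point: if no nontrivial normal `p`-subgroup exists and `M₁, M₂` are
non-normal maximal subgroups with every maximal subgroup conjugate to one of them, then a uniqueness
argument gives `|G : M₂| ≡ 1 (mod |G : M₁|)` and, symmetrically, `|G : M₁| ≡ 1 (mod |G : M₂|)`, which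
is absurd.
-/

set_option autoImplicit false
set_option linter.style.haveILetI false

open scoped Pointwise

namespace Cfsg.Agent.Lib.TwoMax.Main

open Subgroup Cfsg.Agent.Lib.Solvable.Hall Cfsg.Agent.Lib.LocalStruct.Minimal

universe u

variable {G : Type u} [Group G] [Finite G]

/-- A `p`-subgroup of a subgroup of `p'`-index lies in a Sylow `p`-subgroup of the group inside that
subgroup. -/
theorem exists_sylow_between {p : ℕ} [hp : Fact p.Prime] {X L : Subgroup G} (hX : IsPGroup p X)
    (hXL : X ≤ L) (hL : ¬ p ∣ L.index) : ∃ T : Sylow p G, X ≤ T ∧ (T : Subgroup G) ≤ L := by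
  have hX' : IsPGroup p (X.subgroupOf L) := hX.of_equiv (Subgroup.subgroupOfEquivOfLe hXL).symm
  obtain ⟨Q, hQ⟩ := hX'.exists_le_sylow
  have hcard : Nat.card ((Q : Subgroup L).map L.subtype) = p ^ (Nat.card G).factorization p := by
    have h1 : Nat.card ((Q : Subgroup L).map L.subtype) = Nat.card (Q : Subgroup L) :=
      Nat.card_congr (Subgroup.equivMapOfInjective _ _ L.subtype_injective).symm.toEquiv
    rw [h1, Sylow.card_eq_multiplicity]
    have h2 : Nat.card G = Nat.card L * L.index := (Subgroup.card_mul_index L).symm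
    have h3 : (Nat.card G).factorization p = (Nat.card L).factorization p := by
      rw [h2, Nat.factorization_mul Nat.card_pos.ne' (Subgroup.index_ne_zero_of_finite)]
      simp [Nat.factorization_eq_zero_of_not_dvd hL]
    rw [h3]
  refine ⟨Sylow.ofCard _ hcard, ?_, ?_⟩
  · intro x hx
    exact ⟨⟨x, hXL hx⟩, hQ (by simpa [Subgroup.mem_subgroupOf] using hx), rfl⟩
  · intro x hx
    obtain ⟨y, -, rfl⟩ := hx
    exact y.2

/-- If a Sylow subgroup `X` lies in a conjugate of `H` and its normalizer lies in another conjugate of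
`H`, then those two conjugates coincide. -/
theorem conj_eq_of_sylow {p : ℕ} [hp : Fact p.Prime] (H : Subgroup G) (T : Sylow p G) (a c : G)
    (hXa : (T : Subgroup G) ≤ MulAut.conj a • H)
    (hNc : normalizer ((T : Subgroup G) : Set G) ≤ MulAut.conj c • H) :
    MulAut.conj a • H = MulAut.conj c • H := by
  have hc0 : (T : Subgroup G) ≤ MulAut.conj c • H := (Subgroup.le_normalizer).trans hNc
  have hA : ((a⁻¹ • T : Sylow p G) : Subgroup G) ≤ H := by
    intro x hx
    rw [Sylow.smul_def, Sylow.pointwise_smul_def, mem_conj_smul_iff] at hx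
    have := hXa hx
    rw [mem_conj_smul_iff] at this
    simpa [mul_assoc] using this
  have hB : ((c⁻¹ • T : Sylow p G) : Subgroup G) ≤ H := by
    intro x hx
    rw [Sylow.smul_def, Sylow.pointwise_smul_def, mem_conj_smul_iff] at hx
    have := hc0 hx
    rw [mem_conj_smul_iff] at this
    simpa [mul_assoc] using this
  obtain ⟨h, hh⟩ := MulAction.exists_smul_eq (↥H) ((a⁻¹ • T).subtype hA) ((c⁻¹ • T).subtype hB)
  rw [Sylow.smul_subtype] at hh
  have hh' : h • (a⁻¹ • T) = c⁻¹ • T := Sylow.subtype_injective hh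
  have hn : (c * (h : G) * a⁻¹) • T = T := by
    calc (c * (h : G) * a⁻¹) • T = c • ((h : G) • (a⁻¹ • T)) := by rw [mul_assoc, mul_smul, mul_smul]
      _ = c • (c⁻¹ • T) := by
          congr 1
      _ = T := by rw [smul_inv_smul]
  have hmem : c * (h : G) * a⁻¹ ∈ normalizer ((T : Subgroup G) : Set G) := by
    rw [Sylow.smul_eq_iff_mem_normalizer] at hn
    exact hn
  have hmem2 := hNc hmem
  have hconj : MulAut.conj (c * (h : G) * a⁻¹) • (MulAut.conj a • H) = MulAut.conj c • H := by
    rw [conj_smul_conj_smul]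
    have : c * (h : G) * a⁻¹ * a = c * h := by group
    rw [this, ← conj_smul_conj_smul]
    congr 1
    ext x
    rw [mem_conj_smul_iff]
    constructor
    · intro hx
      have := H.mul_mem (H.mul_mem h.2 hx) (H.inv_mem h.2)
      simpa [mul_assoc] using this
    · intro hx
      exact H.mul_mem (H.mul_mem (H.inv_mem h.2) hx) h.2
  have hfix : MulAut.conj (c * (h : G) * a⁻¹) • (MulAut.conj c • H) = MulAut.conj c • H := by
    ext x
    rw [mem_conj_smul_iff]
    constructor
    · intro hx
      have := (MulAut.conj c • H).mul_mem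
        ((MulAut.conj c • H).mul_mem hmem2 hx) ((MulAut.conj c • H).inv_mem hmem2)
      simpa [mul_assoc] using this
    · intro hx
      exact (MulAut.conj c • H).mul_mem
        ((MulAut.conj c • H).mul_mem ((MulAut.conj c • H).inv_mem hmem2) hx) hmem2
  have := hconj.trans hfix.symm
  exact smul_left_cancel _ this

/-- The uniqueness argument. -/
theorem conj_eq_of_big {p : ℕ} [hp : Fact p.Prime] (H : Subgroup G) (hH : ¬ p ∣ H.index)
    (Big : Subgroup G → Prop) (hup : ∀ X Y : Subgroup G, X ≤ Y → Big X → Big Y)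
    (hN : ∀ X : Subgroup G, IsPGroup p X → Big X →
      ∃ c : G, normalizer (X : Set G) ≤ MulAut.conj c • H) :
    ∀ X : Subgroup G, IsPGroup p X → Big X → ∀ a b : G, X ≤ MulAut.conj a • H →
      X ≤ MulAut.conj b • H → MulAut.conj a • H = MulAut.conj b • H := by
  intro X
  induction X using WellFoundedGT.induction with
  | ind X ih =>
  intro hX hBig a b ha hb
  obtain ⟨c, hc⟩ := hN X hX hBig
  have key : ∀ e : G, X ≤ MulAut.conj e • H → MulAut.conj e • H = MulAut.conj c • H := by
    intro e he
    have hidx : ¬ p ∣ (MulAut.conj e • H : Subgroup G).index := by rwa [index_conj_smul]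
    obtain ⟨T, hXT, hTe⟩ := exists_sylow_between hX he hidx
    by_cases hTX : (T : Subgroup G) ≤ X
    · have hEq : X = T := le_antisymm hXT hTX
      subst hEq
      exact conj_eq_of_sylow H T e c he hc
    · have hnot : ¬ ((T : Subgroup G) ⊓ normalizer (X : Set G) ≤ X) := fun h =>
        hTX (le_of_inf_normalizer_le T.isPGroup' h hXT)
      have hXle : X ≤ (T : Subgroup G) ⊓ normalizer (X : Set G) := le_inf hXT Subgroup.le_normalizer
      have hlt : X < (T : Subgroup G) ⊓ normalizer (X : Set G) := lt_of_le_of_ne hXle (fun h => hnot (h ▸ le_rfl))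
      exact ih _ hlt (T.isPGroup'.to_le inf_le_left) (hup _ _ hXle hBig) e c
        (inf_le_left.trans hTe) (inf_le_right.trans hc)
  exact (key a ha).trans (key b hb).symm

/-- Orbit counting: if `a` is a fixed point and all other orbits have size divisible by `d`, then
the size of the set is congruent to `1` modulo `d`. -/
theorem card_modEq_one_of_orbits {T α : Type*} [Group T] [MulAction T α] [Finite α] (d : ℕ) (a : α)
    (ha : ∀ t : T, t • a = a) (h : ∀ b : α, b ≠ a → d ∣ (MulAction.orbit T b).ncard) :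
    Nat.card α ≡ 1 [MOD d] := by
  classical
  have := Fintype.ofFinite α
  let Ω := MulAction.orbitRel.Quotient T α
  have : Fintype Ω := Fintype.ofFinite Ω
  have hcard : Nat.card α = ∑ ω : Ω, (MulAction.orbit T ω.out).ncard := by
    rw [Nat.card_congr (MulAction.selfEquivSigmaOrbits T α), Nat.card_sigma]
    refine Finset.sum_congr rfl fun ω _ => ?_
    exact Nat.card_coe_set_eq _
  let ω₀ : Ω := Quotient.mk'' a
  have horb : ∀ x : α, x ∈ MulAction.orbit T a → x = a := by
    rintro x ⟨t, rfl⟩
    exact ha t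
  have hout : ω₀.out = a := by
    have h1 : ω₀.out ∈ MulAction.orbit T a := by
      have h2 : (MulAction.orbitRel T α) ω₀.out a := Quotient.exact' (Quotient.out_eq' ω₀)
      exact MulAction.orbitRel_apply.mp h2
    exact horb _ h1
  have h0 : (MulAction.orbit T ω₀.out).ncard = 1 := by
    rw [hout]
    have : MulAction.orbit T a = {a} := by
      ext x
      constructor
      · intro hx
        exact horb x hx
      · intro hx
        rw [Set.mem_singleton_iff.mp hx]
        exact MulAction.mem_orbit_self a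
    rw [this, Set.ncard_singleton]
  rw [hcard, ← Finset.add_sum_erase _ _ (Finset.mem_univ ω₀), h0]
  have hd : d ∣ ∑ ω ∈ Finset.univ.erase ω₀, (MulAction.orbit T ω.out).ncard := by
    refine Finset.dvd_sum fun ω hω => h _ ?_
    intro he
    apply (Finset.mem_erase.mp hω).1
    have : ω = Quotient.mk'' ω.out := by simp
    rw [this, he]
  obtain ⟨k, hk⟩ := hd
  rw [hk]
  simp [Nat.ModEq]

/-- The congruence. -/
theorem index_modEq_of_dvd (M₁ M₂ : Subgroup G) (hM₂ : normalizer (M₂ : Set G) = M₂)
    (hall : ∀ C : Subgroup G, IsCoatom C →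
      ∃ g : G, C = MulAut.conj g • M₁ ∨ C = MulAut.conj g • M₂)
    (hc : ∀ (p : ℕ), p.Prime → ∀ X : Subgroup G, IsPGroup p X → X ≠ ⊥ → ¬ X.Normal)
    {p k : ℕ} [hp : Fact p.Prime] (hk : p ^ k ∣ M₁.index) (hk0 : k ≠ 0) :
    M₂.index ≡ 1 [MOD p ^ k] := by
  have hpk : p ∣ M₁.index := (dvd_pow_self p hk0).trans hk
  have hGcard : Nat.card G = Nat.card M₁ * M₁.index := (Subgroup.card_mul_index M₁).symm
  -- a Sylow subgroup in a conjugate of `M₂`
  obtain ⟨T₀⟩ : Nonempty (Sylow p G) := inferInstance
  have hpG : p ∣ Nat.card G := hGcard ▸ Dvd.dvd.mul_left hpk _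
  have hT₀ne : (T₀ : Subgroup G) ≠ ⊥ := by
    intro h
    have h1 : p ^ 1 ∣ Nat.card T₀ := T₀.pow_dvd_card_of_pow_dvd_card (by simpa using hpG)
    rw [h, Subgroup.card_bot] at h1
    have := Nat.le_of_dvd one_pos h1
    have h2 := hp.out.two_le
    simp at this
    omega
  have hT₀top : (T₀ : Subgroup G) ≠ ⊤ := by
    intro h
    apply hc p hp.out _ T₀.isPGroup' hT₀ne
    rw [h]
    infer_instance
  obtain ⟨C, hC, hTC⟩ := exists_coatom_ge hT₀top
  have hnotM₁ : ∀ g : G, C ≠ MulAut.conj g • M₁ := by
    intro g hg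
    have h1 : ¬ p ∣ (T₀ : Subgroup G).index := T₀.not_dvd_index
    apply h1
    have h2 : C.index ∣ (T₀ : Subgroup G).index := Subgroup.index_dvd_of_le hTC
    rw [hg, index_conj_smul] at h2
    exact hpk.trans h2
  obtain ⟨g₀, hg₀⟩ := hall C hC
  have hCM₂ : C = MulAut.conj g₀ • M₂ := by
    rcases hg₀ with h | h
    · exact absurd h (hnotM₁ g₀)
    · exact h
  have hM₂p : ¬ p ∣ M₂.index := by
    intro h
    have h1 : ¬ p ∣ (T₀ : Subgroup G).index := T₀.not_dvd_index
    apply h1
    have h2 : C.index ∣ (T₀ : Subgroup G).index := Subgroup.index_dvd_of_le hTC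
    rw [hCM₂, index_conj_smul] at h2
    exact h.trans h2
  -- replace `T₀`
  let T : Sylow p G := g₀⁻¹ • T₀
  have hTM₂ : (T : Subgroup G) ≤ M₂ := by
    intro x hx
    change x ∈ ((g₀⁻¹ • T₀ : Sylow p G) : Subgroup G) at hx
    rw [Sylow.smul_def, Sylow.pointwise_smul_def, mem_conj_smul_iff] at hx
    have h1 := hTC hx
    rw [hCM₂, mem_conj_smul_iff] at h1
    simpa [mul_assoc] using h1
  -- the big subgroups
  let Big : Subgroup G → Prop := fun X => ¬ (Nat.card X * p ^ k ∣ Nat.card G)
  have hup : ∀ X Y : Subgroup G, X ≤ Y → Big X → Big Y := by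
    intro X Y hXY hX hY
    exact hX ((Nat.mul_dvd_mul_right (Subgroup.card_dvd_of_le hXY) _).trans hY)
  have hN : ∀ X : Subgroup G, IsPGroup p X → Big X →
      ∃ c : G, normalizer (X : Set G) ≤ MulAut.conj c • M₂ := by
    intro X hX hBig
    have hXne : X ≠ ⊥ := by
      intro h
      apply hBig
      rw [h, Subgroup.card_bot, one_mul, hGcard]
      exact Dvd.dvd.mul_left hk _
    have hNtop : normalizer (X : Set G) ≠ ⊤ := by
      intro h
      exact hc p hp.out X hX hXne (Subgroup.normalizer_eq_top_iff.mp h)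
    obtain ⟨D, hD, hND⟩ := exists_coatom_ge hNtop
    obtain ⟨c, hc'⟩ := hall D hD
    refine ⟨c, ?_⟩
    rcases hc' with h | h
    · exfalso
      apply hBig
      have hXD : X ≤ D := Subgroup.le_normalizer.trans hND
      have h1 : Nat.card X ∣ Nat.card M₁ := by
        have := Subgroup.card_dvd_of_le hXD
        rwa [h, card_conj_smul] at this
      rw [hGcard]
      exact Nat.mul_dvd_mul h1 hk
    · rwa [h] at hND
  have hU := conj_eq_of_big M₂ hM₂p Big hup hN
  -- the count
  let α := G ⧸ M₂
  have hmod : Nat.card α ≡ 1 [MOD p ^ k] := by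
    refine card_modEq_one_of_orbits (T := (T : Subgroup G)) (p ^ k) ((1 : G) : α) ?_ ?_
    · intro t
      have : (t : G) ∈ M₂ := hTM₂ t.2
      change (((t : G) • ((1 : G) : α))) = _
      rw [MulAction.Quotient.smul_coe, QuotientGroup.eq]
      simpa using M₂.inv_mem this
    · intro b hb
      obtain ⟨g, rfl⟩ := QuotientGroup.mk_surjective b
      have hgM : g ∉ M₂ := by
        intro hg
        apply hb
        rw [QuotientGroup.eq]
        simpa using M₂.inv_mem hg
      -- the stabilizer
      let S := MulAction.stabilizer (T : Subgroup G) ((g : G) : α)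
      have hSmap : S.map (T : Subgroup G).subtype = (T : Subgroup G) ⊓ MulAut.conj g • M₂ := by
        ext x
        constructor
        · rintro ⟨y, hy, rfl⟩
          refine ⟨y.2, ?_⟩
          change (y : G) ∈ MulAut.conj g • M₂
          rw [mem_conj_smul_iff]
          have h1 : ((y : G) • ((g : G) : α)) = ((g : G) : α) := hy
          rw [MulAction.Quotient.smul_coe, QuotientGroup.eq] at h1
          simpa [mul_assoc] using M₂.inv_mem h1
        · rintro ⟨hx, hx2⟩
          refine ⟨⟨x, hx⟩, ?_, rfl⟩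
          change x ∈ MulAut.conj g • M₂ at hx2
          rw [mem_conj_smul_iff] at hx2
          change (x • ((g : G) : α)) = ((g : G) : α)
          rw [MulAction.Quotient.smul_coe, QuotientGroup.eq]
          have := M₂.inv_mem hx2
          simpa [mul_assoc] using this
      have hScard : Nat.card S = Nat.card ((T : Subgroup G) ⊓ MulAut.conj g • M₂ : Subgroup G) := by
        rw [← hSmap]
        exact Nat.card_congr (Subgroup.equivMapOfInjective _ _ (Subgroup.subtype_injective _)).toEquiv
      have hXp : IsPGroup p ((T : Subgroup G) ⊓ MulAut.conj g • M₂ : Subgroup G) :=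
        T.isPGroup'.to_le inf_le_left
      have hnotBig : Nat.card ((T : Subgroup G) ⊓ MulAut.conj g • M₂ : Subgroup G) * p ^ k ∣ Nat.card G := by
        by_contra hcon
        have h1 := hU _ hXp hcon 1 g (by
          refine inf_le_left.trans ?_
          intro x hx
          rw [mem_conj_smul_iff]
          simpa using hTM₂ hx) inf_le_right
        have h3 : ∀ y : G, y ∈ M₂ ↔ g⁻¹ * y * g ∈ M₂ := by
          intro y
          rw [← mem_conj_smul_iff, ← h1, mem_conj_smul_iff]
          simp
        have h2 : g ∈ normalizer (M₂ : Set G) := by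
          rw [Subgroup.mem_normalizer_iff]
          intro x
          rw [h3 (g * x * g⁻¹)]
          have : g⁻¹ * (g * x * g⁻¹) * g = x := by group
          rw [this]
        rw [hM₂] at h2
        exact hgM h2
      obtain ⟨s, hs⟩ := IsPGroup.iff_card.mp hXp
      have h5 : p ^ (s + k) ∣ Nat.card G := by rw [pow_add, ← hs]; exact hnotBig
      have h6 : p ^ (s + k) ∣ Nat.card T := T.pow_dvd_card_of_pow_dvd_card h5
      have h7 : Nat.card S * S.index = Nat.card (T : Subgroup G) := Subgroup.card_mul_index S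
      rw [← MulAction.index_stabilizer]
      change p ^ k ∣ S.index
      have h8 : p ^ (s + k) ∣ p ^ s * S.index := by
        rw [← hs, ← hScard, h7]
        exact h6
      rw [pow_add] at h8
      exact Nat.dvd_of_mul_dvd_mul_left (pow_pos hp.out.pos s) h8
  exact hmod

/-- The contradiction for non-normal coatoms. -/
theorem false_of_two_selfNormalizing (M₁ M₂ : Subgroup G) (h₁ : M₁ ≠ ⊤) (h₂ : M₂ ≠ ⊤)
    (hM₁ : normalizer (M₁ : Set G) = M₁) (hM₂ : normalizer (M₂ : Set G) = M₂)
    (hall : ∀ C : Subgroup G, IsCoatom C →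
      ∃ g : G, C = MulAut.conj g • M₁ ∨ C = MulAut.conj g • M₂)
    (hc : ∀ (p : ℕ), p.Prime → ∀ X : Subgroup G, IsPGroup p X → X ≠ ⊥ → ¬ X.Normal) : False := by
  have hdvd : ∀ A B : Subgroup G, normalizer (B : Set G) = B →
      (∀ C : Subgroup G, IsCoatom C → ∃ g : G, C = MulAut.conj g • A ∨ C = MulAut.conj g • B) →
      A.index ∣ B.index - 1 := by
    intro A B hB hallAB
    rw [Nat.dvd_iff_prime_pow_dvd_dvd]
    intro p k hp hk
    by_cases hk0 : k = 0
    · subst hk0; simp
    have : Fact p.Prime := ⟨hp⟩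
    have h1 := index_modEq_of_dvd A B hB hallAB hc hk hk0
    have h2 : 1 ≤ B.index := Nat.pos_of_ne_zero Subgroup.index_ne_zero_of_finite
    exact (Nat.modEq_iff_dvd' h2).mp h1.symm
  have h12 := hdvd M₁ M₂ hM₂ hall
  have h21 := hdvd M₂ M₁ hM₁ (fun C hC => by
    obtain ⟨g, hg⟩ := hall C hC
    exact ⟨g, hg.symm⟩)
  have hi₁ : 2 ≤ M₁.index := by
    have h0 : M₁.index ≠ 0 := Subgroup.index_ne_zero_of_finite
    have h1 : M₁.index ≠ 1 := fun h => h₁ (Subgroup.index_eq_one.mp h)
    omega
  have hi₂ : 2 ≤ M₂.index := by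
    have h0 : M₂.index ≠ 0 := Subgroup.index_ne_zero_of_finite
    have h1 : M₂.index ≠ 1 := fun h => h₂ (Subgroup.index_eq_one.mp h)
    omega
  have h3 := Nat.le_of_dvd (by omega) h12
  have h4 := Nat.le_of_dvd (by omega) h21
  omega

/-- A normal coatom `N`: the only other coatoms are conjugates of `M`. Then `N ≤ M`. -/
theorem le_of_normal_coatom (N M : Subgroup G) [hN : N.Normal] (hNtop : N ≠ ⊤)
    (hall : ∀ C : Subgroup G, IsCoatom C → C = N ∨ ∃ g : G, C = MulAut.conj g • M)
    (hc : ∀ (p : ℕ), p.Prime → ∀ X : Subgroup G, IsPGroup p X → X ≠ ⊥ → ¬ X.Normal) : N ≤ M := by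
  have hdvd : Nat.card N ∣ Nat.card (N ⊓ M : Subgroup G) := by
    rw [Nat.dvd_iff_prime_pow_dvd_dvd]
    intro p k hp hk
    by_cases hk0 : k = 0
    · subst hk0; simp
    have : Fact p.Prime := ⟨hp⟩
    obtain ⟨P⟩ : Nonempty (Sylow p N) := inferInstance
    have h1 : p ^ k ∣ Nat.card P := P.pow_dvd_card_of_pow_dvd_card hk
    let R : Subgroup G := (P : Subgroup N).map N.subtype
    have hRcard : Nat.card R = Nat.card P :=
      Nat.card_congr (Subgroup.equivMapOfInjective _ _ N.subtype_injective).symm.toEquiv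
    have hRp : IsPGroup p R := by
      have : IsPGroup p (P : Subgroup N) := P.isPGroup'
      exact this.map N.subtype
    have hRne : R ≠ ⊥ := by
      intro h
      rw [← hRcard, h, Subgroup.card_bot] at h1
      have h2 := Nat.le_of_dvd one_pos h1
      have h3 : p ≤ p ^ k := Nat.le_self_pow hk0 p
      have := hp.two_le
      omega
    have hNRtop : normalizer (R : Set G) ≠ ⊤ := fun h =>
      hc p hp R hRp hRne (Subgroup.normalizer_eq_top_iff.mp h)
    obtain ⟨C, hC, hRC⟩ := exists_coatom_ge hNRtop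
    have hsup : normalizer (R : Set G) ⊔ N = ⊤ := Sylow.normalizer_sup_eq_top P
    rcases hall C hC with h | ⟨g, h⟩
    · exfalso
      apply hNtop
      rw [eq_top_iff, ← hsup]
      exact sup_le (hRC.trans h.le) le_rfl
    · have hRN : R ≤ N := by
        rintro x ⟨y, -, rfl⟩
        exact y.2
      have hRg : R ≤ MulAut.conj g • M := by
        rw [← h]
        exact Subgroup.le_normalizer.trans hRC
      have hle : R ≤ MulAut.conj g • (N ⊓ M) := by
        intro x hx
        rw [mem_conj_smul_iff]
        refine ⟨?_, ?_⟩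
        · have := hN.conj_mem x (hRN hx) g⁻¹
          simpa using this
        · exact mem_conj_smul_iff.mp (hRg hx)
      have h2 := Subgroup.card_dvd_of_le hle
      rw [card_conj_smul, hRcard] at h2
      exact h1.trans h2
  have h0 : Nat.card N ≤ Nat.card (N ⊓ M : Subgroup G) := Nat.le_of_dvd Nat.card_pos hdvd
  have := Subgroup.eq_of_le_of_card_ge (inf_le_left : N ⊓ M ≤ N) h0
  exact inf_eq_left.mp this

omit [Finite G] in
theorem isCoatom_conj_smul {A : Subgroup G} (hA : IsCoatom A) (g : G) :
    IsCoatom (MulAut.conj g • A) := by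
  constructor
  · intro h
    apply hA.1
    rw [← inv_smul_smul (MulAut.conj g) A, h]
    ext x
    simp [Subgroup.mem_pointwise_smul_iff_inv_smul_mem]
  · intro B hB
    have h1 : A < (MulAut.conj g)⁻¹ • B := by
      refine lt_of_le_of_ne ?_ ?_
      · rw [← inv_smul_smul (MulAut.conj g) A]
        exact Subgroup.pointwise_smul_le_pointwise_smul_iff.mpr hB.le
      · intro h
        apply hB.ne
        rw [h, smul_inv_smul]
    have h2 := hA.2 _ h1
    rw [← smul_inv_smul (MulAut.conj g) B, h2]
    ext x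
    simp

omit [Finite G] in
theorem conj_smul_of_normal (N : Subgroup G) [hN : N.Normal] (g : G) : MulAut.conj g • N = N := by
  ext x
  rw [mem_conj_smul_iff]
  constructor
  · intro hx
    have := hN.conj_mem _ hx g
    simpa [mul_assoc] using this
  · intro hx
    have := hN.conj_mem _ hx g⁻¹
    simpa [mul_assoc] using this

omit [Finite G] in
theorem coatom_eq_of_le {A B : Subgroup G} (hA : IsCoatom A) (hB : B ≠ ⊤) (h : A ≤ B) : A = B := by
  by_contra hne
  exact hB (hA.2 _ (lt_of_le_of_ne h hne))

omit [Finite G] in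
/-- A coatom is either normal or self-normalizing. -/
theorem normal_or_selfNormalizing {M : Subgroup G} (hM : IsCoatom M) :
    M.Normal ∨ normalizer (M : Set G) = M := by
  by_cases h : normalizer (M : Set G) = M
  · exact Or.inr h
  · left
    have hlt : M < normalizer (M : Set G) := lt_of_le_of_ne Subgroup.le_normalizer (Ne.symm h)
    exact Subgroup.normalizer_eq_top_iff.mp (hM.2 _ hlt)

/-- **Finite groups with at most two conjugacy classes of maximal subgroups are solvable.** -/
theorem isSolvable_of_two : ∀ (n : ℕ) (G : Type u) [Group G] [Finite G], Nat.card G = n →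
    ∀ M₁ M₂ : Subgroup G, (∀ C : Subgroup G, IsCoatom C →
      ∃ g : G, C = MulAut.conj g • M₁ ∨ C = MulAut.conj g • M₂) → Group.IsSolvable G := by
  intro n
  induction n using Nat.strong_induction_on with
  | _ n ih =>
  intro G _ _ hn M₁ M₂ hall
  by_contra hns
  -- no solvable normal subgroup
  have hnosol : ∀ N : Subgroup G, N.Normal → N ≠ ⊥ → ¬ Group.IsSolvable N := by
    intro N hNn hNb hNs
    apply hns
    have hlt : Nat.card (G ⧸ N) < n := by
      have h1 := Subgroup.card_eq_card_quotient_mul_card_subgroup N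
      have h2 : 1 < Nat.card N := by
        rw [Subgroup.one_lt_card_iff_ne_bot]
        exact hNb
      have h3 : 0 < Nat.card (G ⧸ N) := Nat.card_pos
      rw [← hn, h1]
      nlinarith
    have hq : Group.IsSolvable (G ⧸ N) := by
      refine ih _ hlt (G ⧸ N) rfl (M₁.map (QuotientGroup.mk' N)) (M₂.map (QuotientGroup.mk' N)) ?_
      intro Q hQ
      have hQ' := isCoatom_comap_mk N hQ
      obtain ⟨g, hg⟩ := hall _ hQ'
      have hs := QuotientGroup.mk'_surjective N
      refine ⟨QuotientGroup.mk' N g, ?_⟩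
      rcases hg with h | h
      · left
        rw [← map_conj_smul, ← h, Subgroup.map_comap_eq_self_of_surjective hs]
      · right
        rw [← map_conj_smul, ← h, Subgroup.map_comap_eq_self_of_surjective hs]
    exact Group.isSolvable_of_ker_le_range N.subtype (QuotientGroup.mk' N) (by simp)
  have hc : ∀ (p : ℕ), p.Prime → ∀ X : Subgroup G, IsPGroup p X → X ≠ ⊥ → ¬ X.Normal := by
    intro p hp X hX hXb hXn
    have : Fact p.Prime := ⟨hp⟩
    have : Group.IsNilpotent X := hX.isNilpotent
    exact hnosol X hXn hXb inferInstance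
  have hnt : Nontrivial G := by
    by_contra h
    rw [not_nontrivial_iff_subsingleton] at h
    exact hns inferInstance
  -- the one-class case
  have hone : ∀ M : Subgroup G, ¬ (∀ C : Subgroup G, IsCoatom C → ∃ g : G, C = MulAut.conj g • M) := by
    intro M hM
    apply hns
    have h1 : IsCyclic G := by
      refine (Cfsg.Agent.S4387.result (G := G) ?_).1
      intro A B hA hB
      obtain ⟨a, ha⟩ := hM A hA
      obtain ⟨b, hb⟩ := hM B hB
      refine ⟨b * a⁻¹, ?_⟩
      rw [ha, hb, conj_smul_conj_smul]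
      congr 2
      group
    have : IsMulCommutative G := IsCyclic.isMulCommutative
    exact inferInstance
  -- `M₁`, `M₂` are coatoms
  have hco₁ : IsCoatom M₁ := by
    by_contra h
    apply hone M₂
    intro C hC
    obtain ⟨g, hg⟩ := hall C hC
    rcases hg with h1 | h1
    · exfalso
      apply h
      have : M₁ = MulAut.conj g⁻¹ • C := by rw [h1, conj_smul_conj_smul]; simp
      rw [this]
      exact isCoatom_conj_smul hC _
    · exact ⟨g, h1⟩
  have hco₂ : IsCoatom M₂ := by
    by_contra h
    apply hone M₁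
    intro C hC
    obtain ⟨g, hg⟩ := hall C hC
    rcases hg with h1 | h1
    · exact ⟨g, h1⟩
    · exfalso
      apply h
      have : M₂ = MulAut.conj g⁻¹ • C := by rw [h1, conj_smul_conj_smul]; simp
      rw [this]
      exact isCoatom_conj_smul hC _
  rcases normal_or_selfNormalizing hco₁ with hn₁ | hn₁
  · have hle := le_of_normal_coatom M₁ M₂ hco₁.1 (fun C hC => by
      obtain ⟨g, hg⟩ := hall C hC
      rcases hg with h1 | h1
      · left
        rw [h1, conj_smul_of_normal]
      · exact Or.inr ⟨g, h1⟩) hc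
    have hEq : M₁ = M₂ := coatom_eq_of_le hco₁ hco₂.1 hle
    subst hEq
    apply hone M₁
    intro C hC
    obtain ⟨g, hg⟩ := hall C hC
    exact ⟨g, hg.elim id id⟩
  · rcases normal_or_selfNormalizing hco₂ with hn₂ | hn₂
    · have hle := le_of_normal_coatom M₂ M₁ hco₂.1 (fun C hC => by
        obtain ⟨g, hg⟩ := hall C hC
        rcases hg with h1 | h1
        · exact Or.inr ⟨g, h1⟩
        · left
          rw [h1, conj_smul_of_normal]) hc
      have hEq : M₂ = M₁ := coatom_eq_of_le hco₂ hco₁.1 hle
      subst hEq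
      apply hone M₂
      intro C hC
      obtain ⟨g, hg⟩ := hall C hC
      exact ⟨g, hg.elim id id⟩
    · exact false_of_two_selfNormalizing M₁ M₂ hco₁.1 hco₂.1 hn₁ hn₂ hall hc

/-- In a solvable group, each prime divisor of the order divides the index of some maximal
subgroup. -/
theorem exists_coatom_dvd_index [Group.IsSolvable G] {r : ℕ} (hr : r.Prime) (hrG : r ∣ Nat.card G) :
    ∃ M : Subgroup G, IsCoatom M ∧ r ∣ M.index := by
  have hG0 : Nat.card G ≠ 0 := Nat.card_pos.ne'
  set e := (Nat.card G).factorization r with he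
  set a := ordCompl[r] (Nat.card G) with ha
  have hcard : Nat.card G = a * r ^ e := by
    rw [mul_comm]
    exact (Nat.ordProj_mul_ordCompl_eq_self _ _).symm
  have hcop : a.Coprime (r ^ e) := (Nat.coprime_ordCompl hr hG0).symm.pow_right _
  have he0 : e ≠ 0 := (hr.factorization_pos_of_dvd hG0 hrG).ne'
  obtain ⟨H, hH⟩ := Cfsg.Agent.Lib.Solvable.Hall.exists_card_eq a (r ^ e) hcard hcop
  have ha0 : 0 < a := Nat.pos_of_ne_zero (fun h => by rw [h, zero_mul] at hcard; exact hG0 hcard)
  have hindex : H.index = r ^ e := by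
    have h1 := Subgroup.card_mul_index H
    rw [hH, hcard] at h1
    exact Nat.eq_of_mul_eq_mul_left ha0 h1
  have hHtop : H ≠ ⊤ := by
    rintro rfl
    rw [Subgroup.index_top] at hindex
    have h2 : r ≤ r ^ e := Nat.le_self_pow he0 r
    have := hr.two_le
    omega
  obtain ⟨M, hM, hHM⟩ := exists_coatom_ge hHtop
  refine ⟨M, hM, ?_⟩
  have h1 : M.index ∣ r ^ e := hindex ▸ Subgroup.index_dvd_of_le hHM
  obtain ⟨j, -, hj⟩ := (Nat.dvd_prime_pow hr).mp h1
  rw [hj]
  refine dvd_pow_self r ?_
  rintro rfl
  rw [pow_zero, Subgroup.index_eq_one] at hj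
  exact hM.1 hj

/-- The number of prime divisors. -/
theorem primeFactors_card_eq_two [Group.IsSolvable G] (M₁ M₂ : Subgroup G) (h1 : IsCoatom M₁)
    (h2 : IsCoatom M₂) (hne : ∀ g : G, M₂ ≠ MulAut.conj g • M₁)
    (hall : ∀ M : Subgroup G, IsCoatom M → ∃ g : G, M = MulAut.conj g • M₁ ∨ M = MulAut.conj g • M₂) :
    (Nat.card G).primeFactors.card = 2 := by
  classical
  obtain ⟨r₁, k₁, hr₁, hk₁, hi₁⟩ := (isPrimePow_nat_iff _).mp
    (Cfsg.Agent.Lib.Solvable.Misc1.isPrimePow_index_of_isCoatom M₁ h1)
  obtain ⟨r₂, k₂, hr₂, hk₂, hi₂⟩ := (isPrimePow_nat_iff _).mp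
    (Cfsg.Agent.Lib.Solvable.Misc1.isPrimePow_index_of_isCoatom M₂ h2)
  have hG0 : Nat.card G ≠ 0 := Nat.card_pos.ne'
  have hsub : (Nat.card G).primeFactors ⊆ {r₁, r₂} := by
    intro r hr
    have hrp := Nat.prime_of_mem_primeFactors hr
    have hrd := Nat.dvd_of_mem_primeFactors hr
    obtain ⟨M, hM, hrM⟩ := exists_coatom_dvd_index hrp hrd
    obtain ⟨g, hg⟩ := hall M hM
    rcases hg with h | h
    · rw [h, index_conj_smul, ← hi₁] at hrM
      have := (Nat.prime_dvd_prime_iff_eq hrp hr₁).mp (hrp.dvd_of_dvd_pow hrM)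
      simp [this]
    · rw [h, index_conj_smul, ← hi₂] at hrM
      have := (Nat.prime_dvd_prime_iff_eq hrp hr₂).mp (hrp.dvd_of_dvd_pow hrM)
      simp [this]
  have hdvd₁ : r₁ ∣ Nat.card G := by
    have : r₁ ∣ M₁.index := hi₁ ▸ dvd_pow_self _ hk₁.ne'
    exact this.trans (Subgroup.index_dvd_card M₁)
  have hdvd₂ : r₂ ∣ Nat.card G := by
    have : r₂ ∣ M₂.index := hi₂ ▸ dvd_pow_self _ hk₂.ne'
    exact this.trans (Subgroup.index_dvd_card M₂)
  have hrne : r₁ ≠ r₂ := by
    -- otherwise the group is an `r₁`-group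
    intro hEq
    subst hEq
    have : Fact r₁.Prime := ⟨hr₁⟩
    have hP : IsPGroup r₁ G := by
      refine IsPGroup.of_card (Nat.eq_prime_pow_of_unique_prime_dvd hG0 ?_)
      intro d hd hdG
      have h3 := hsub (Nat.mem_primeFactors.mpr ⟨hd, hdG, hG0⟩)
      simpa using h3
    have hn₁ : M₁.Normal := coatom_normal_of_isPGroup hP h1
    have hn₂ : M₂.Normal := coatom_normal_of_isPGroup hP h2
    have hneq : M₁ ≠ M₂ := by
      intro h
      apply hne 1
      rw [h]
      simp
    obtain ⟨x, hx₁, hx₂⟩ : ∃ x, x ∈ M₁ ∧ x ∉ M₂ := by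
      by_contra hcon
      push_neg at hcon
      exact hneq (coatom_eq_of_le h1 h2.1 hcon)
    obtain ⟨y, hy₂, hy₁⟩ : ∃ y, y ∈ M₂ ∧ y ∉ M₁ := by
      by_contra hcon
      push_neg at hcon
      exact hneq (coatom_eq_of_le h2 h1.1 hcon).symm
    have hz₁ : x * y ∉ M₁ := fun h => hy₁ (by simpa using M₁.mul_mem (M₁.inv_mem hx₁) h)
    have hz₂ : x * y ∉ M₂ := fun h => hx₂ (by simpa using M₂.mul_mem h (M₂.inv_mem hy₂))
    have htop : Subgroup.zpowers (x * y) = ⊤ := by
      rcases eq_top_or_exists_le_coatom (Subgroup.zpowers (x * y)) with h0 | ⟨C, hC, hle⟩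
      · exact h0
      · exfalso
        have hzC : x * y ∈ C := hle (Subgroup.mem_zpowers _)
        obtain ⟨g, hg⟩ := hall C hC
        rcases hg with h | h
        · rw [h, conj_smul_of_normal] at hzC
          exact hz₁ hzC
        · rw [h, conj_smul_of_normal] at hzC
          exact hz₂ hzC
    have hcyc : IsCyclic G := ⟨⟨x * y, fun z => by
      have : z ∈ Subgroup.zpowers (x * y) := by rw [htop]; exact Subgroup.mem_top z
      exact this⟩⟩
    have hidx₁ := Cfsg.Agent.Lib.PGroups.Basic.index_eq_of_isCoatom hP h1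
    have hidx₂ := Cfsg.Agent.Lib.PGroups.Basic.index_eq_of_isCoatom hP h2
    have hcard₁ := Subgroup.card_mul_index M₁
    have hcard₂ := Subgroup.card_mul_index M₂
    rw [hidx₁] at hcard₁
    rw [hidx₂] at hcard₂
    have hcc : Nat.card M₁ = Nat.card M₂ :=
      Nat.eq_of_mul_eq_mul_right hr₁.pos (hcard₁.trans hcard₂.symm)
    have := Fintype.ofFinite G
    have hle := IsCyclic.card_pow_eq_one_le (α := G) (n := Nat.card M₁) Nat.card_pos
    have hsubS : ∀ (K : Subgroup G), Nat.card K = Nat.card M₁ →
        (Finset.univ.filter (fun a : G => a ^ Nat.card M₁ = 1) : Set G) = K := by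
      intro K hK
      have h3 : ((K : Set G).toFinset) ⊆ Finset.univ.filter (fun a : G => a ^ Nat.card M₁ = 1) := by
        intro a ha
        have haK : a ∈ K := by simpa using ha
        simp only [Finset.mem_filter, Finset.mem_univ, true_and]
        have := pow_card_eq_one' (G := K) (x := ⟨a, haK⟩)
        rw [hK] at this
        simpa [Subtype.ext_iff] using this
      have h4 : ((K : Set G).toFinset).card = Nat.card M₁ := by
        rw [← hK, Set.toFinset_card, Nat.card_eq_fintype_card]
        rfl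
      have h5 := Finset.eq_of_subset_of_card_le h3 (by rw [h4]; exact hle)
      rw [← h5]
      simp
    have h6 := (hsubS M₁ rfl).symm.trans (hsubS M₂ hcc.symm)
    exact hneq (SetLike.coe_injective h6)
  rw [Finset.Subset.antisymm hsub (by
    intro q hq
    simp only [Finset.mem_insert, Finset.mem_singleton] at hq
    rcases hq with rfl | rfl
    · simp [Nat.mem_primeFactors, hr₁, hdvd₁, hG0]
    · simp [Nat.mem_primeFactors, hr₂, hdvd₂, hG0])]
  exact Finset.card_pair hrne

end Cfsg.Agent.Lib.TwoMax.Main
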